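import Cfsg.Agent.GHB.Basic
import Cfsg.Agent.Trans.SylowIn
import Cfsg.Agent.Block.ZStarElt

/-!
# Subgroups of `A₈` whose Sylow 2-subgroups have a unique involution
-/

set_option autoImplicit false

namespace Cfsg.Lib.GHM.A8

open Subgroup Equiv Cfsg.Lib.Trans

variable {g t a b : Perm (Fin 8)}

theorem fx_le (g : Perm (Fin 8)) : Nat.card {x | g x = x} ≤ 8 := by
  exact (Nat.card_le_card_of_injective (Subtype.val : {x | g x = x} → Fin 8)
    Subtype.val_injective).trans (Nat.card_fin 8).le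

theorem fx_ne (h : g ≠ 1) : Nat.card {x | g x = x} ≠ 8 := fun h8 => h <| by
  have : {x | g x = x} = Set.univ := (Set.eq_univ_iff_ncard _).2 (by
    rw [← Nat.card_coe_set_eq, h8]; simp)
  ext x
  exact congrArg Fin.val (show x ∈ {x | g x = x} from this ▸ Set.mem_univ x)

theorem fx_mod (p : ℕ) [Fact p.Prime] (h : g ^ p = 1) : 8 ≡ Nat.card {x | g x = x} [MOD p] := by
  have := GHB.card_fix g p Set.univ (fun _ _ => trivial)
    (fun x _ => by rw [← Perm.coe_pow, h]; rfl)
  simpa using this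

theorem fx_comm (p : ℕ) [Fact p.Prime] (h : a ^ p = 1) (hab : a * b = b * a) :
    Nat.card {x | b x = x} ≡ Nat.card {x | b x = x ∧ a x = x} [MOD p] :=
  GHB.card_fix a p {x | b x = x} (fun x hx => by
    have := DFunLike.congr_fun hab x
    simp only [Perm.mul_apply] at this
    rw [Set.mem_ofPred_eq, ← this, hx]) (fun x _ => by rw [← Perm.coe_pow, h]; rfl)

theorem fx_inv (h2 : t * t = 1) (h1 : t ≠ 1) (hs : Perm.sign t = 1) :
    Nat.card {x | t x = x} = 0 ∨ Nat.card {x | t x = x} = 4 := by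
  have h3 := Perm.sign_of_pow_two_eq_one (σ := t) (by rw [sq, h2])
  have h4 : Fintype.card (Function.fixedPoints t) = Nat.card {x | t x = x} :=
    Nat.card_eq_fintype_card.symm
  have h5 := fx_mod 2 (g := t) (by rw [sq, h2])
  have h6 := fx_le t
  have h7 := fx_ne h1
  rw [hs, h4, Fintype.card_fin] at h3
  generalize Nat.card {x | t x = x} = n at *
  simp only [Nat.ModEq] at h5
  interval_cases n <;> first | omega | exact absurd h3 (by decide)

theorem and_le (a b : Perm (Fin 8)) :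
    Nat.card {x | b x = x ∧ a x = x} ≤ Nat.card {x | a x = x} :=
  Nat.card_mono (Set.toFinite _) fun _ hx => hx.2

theorem and_comm' (a b : Perm (Fin 8)) :
    Nat.card {x | b x = x ∧ a x = x} = Nat.card {x | a x = x ∧ b x = x} := by
  simp only [and_comm]

/-- An even involution does not centralise an element of order five or seven. -/
theorem cent57 (p : ℕ) (hp : p = 5 ∨ p = 7) (h : g ^ p = 1) (h1 : g ≠ 1) (h2 : t * t = 1)
    (hs : Perm.sign t = 1) (hc : t * g = g * t) : t = 1 := by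
  by_contra ht
  have : Fact p.Prime := ⟨by rcases hp with rfl | rfl <;> decide⟩
  have a1 := fx_mod p h
  have a2 := fx_le g
  have a3 := fx_ne h1
  have a4 := fx_comm 2 (a := t) (b := g) (by rw [sq, h2]) hc
  have a5 := fx_comm p (b := t) h hc.symm
  have a6 := and_le g t
  have a7 := fx_inv h2 ht hs
  rw [and_comm'] at a4
  simp only [Nat.ModEq] at a1 a4 a5
  rcases hp with rfl | rfl <;> omega

/-- An even involution does not invert an element of order seven. -/
theorem inv7 (h : g ^ 7 = 1) (h1 : g ≠ 1) (h2 : t * t = 1) (hs : Perm.sign t = 1)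
    (hc : t * g * t⁻¹ = g⁻¹) : False := by
  have : Fact (Nat.Prime 7) := ⟨by decide⟩
  have ho : orderOf g = 7 := orderOf_eq_prime h h1
  have ht : t ≠ 1 := by
    rintro rfl
    have : g ^ 2 = 1 := by
      rw [sq]; nth_rewrite 1 [show g = g⁻¹ by simpa using hc]; simp
    have := orderOf_dvd_of_pow_eq_one this
    rw [ho] at this
    omega
  have hcyc : g.IsCycle := Perm.isCycle_of_prime_order' (by rw [ho]; decide) (by rw [ho]; simp)
  have a1 := fx_mod 7 h
  have a2 := fx_le g
  have a3 := fx_ne h1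
  have a4 : Nat.card {x | g x = x} ≡ Nat.card {x | g x = x ∧ t x = x} [MOD 2] :=
    GHB.card_fix t 2 {x | g x = x} (fun x hx => by
      have h3 : g * t = t * g⁻¹ := by
        have : t⁻¹ = t := inv_eq_of_mul_eq_one_right h2
        rw [← hc, this, ← mul_assoc, ← mul_assoc, h2, one_mul]
      have := DFunLike.congr_fun h3 x
      simp only [Perm.mul_apply] at this
      rw [Set.mem_ofPred_eq, this, Perm.inv_eq_iff_eq.2 (show x = g x from hx.symm)])
      (fun x _ => by rw [← Perm.coe_pow, sq, h2]; rfl)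
  have a6 := and_le t g
  have a6' := and_le g t
  have a7 := fx_inv h2 ht hs
  have a8 : {x | t x = x ∧ g x ≠ x}.Subsingleton := by
    rintro x ⟨hx, hx'⟩ y ⟨hy, hy'⟩
    obtain ⟨i, rfl⟩ := hcyc.exists_pow_eq hx' hy'
    have h3 : g ^ i * t * g ^ i = t := by
      have : t * g ^ i * t⁻¹ = (g ^ i)⁻¹ := by rw [← conj_pow, hc, inv_pow]
      rw [mul_assoc, mul_inv_eq_iff_eq_mul.1 this, mul_inv_cancel_left]
    have h4 := DFunLike.congr_fun h3 x
    simp only [Perm.mul_apply] at h4
    rw [hy, hx, ← Perm.mul_apply, ← pow_add, ← hcyc.pow_eq_one_iff' hx',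
      ← orderOf_dvd_iff_pow_eq_one, ho] at h4
    have h5 : g ^ i = 1 := orderOf_dvd_iff_pow_eq_one.1 (by rw [ho]; omega)
    rw [h5]; rfl
  have a9 : Nat.card {x | t x = x} ≤ Nat.card {x | t x = x ∧ g x = x} + 1 := by
    have : {x | t x = x} = {x | t x = x ∧ g x = x} ∪ {x | t x = x ∧ g x ≠ x} := by
      ext x; by_cases hx : g x = x <;> simp [hx]
    rw [this, Nat.card_coe_set_eq, Nat.card_coe_set_eq]
    exact (Set.ncard_union_le _ _).trans (Nat.add_le_add_left
      ((Set.ncard_le_one (Set.toFinite _)).2 fun x hx y hy => a8 hx hy) _)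
  rw [and_comm'] at a4
  rw [and_comm'] at a6
  simp only [Nat.ModEq] at a1 a4
  omega

theorem cube (h : g ^ 9 = 1) : g ^ 3 = 1 := by
  have : Fact (Nat.Prime 3) := ⟨by decide⟩
  refine Perm.pow_prime_eq_one_iff.2 fun c hc => ?_
  have h1 := (Perm.dvd_of_mem_cycleType hc).trans (orderOf_dvd_of_pow_eq_one h)
  have h2 := (Perm.le_card_support_of_mem_cycleType hc).trans (Finset.card_le_univ _)
  have h3 := Perm.two_le_of_mem_cycleType hc
  rw [Fintype.card_fin] at h2
  interval_cases c <;> omega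

theorem fx_conj (a b : Perm (Fin 8)) :
    Nat.card {x | (a * b * a⁻¹) x = x} = Nat.card {x | b x = x} :=
  (Nat.card_congr (a.subtypeEquiv fun x => by simp)).symm

/-- The non-trivial elements of a group of order nine do not all have the same number of fixed
points. -/
theorem nine {D : Type*} [Group D] [Finite D] (f : D →* Perm (Fin 8)) (hf : Function.Injective f)
    (h9 : Nat.card D = 9) {n : ℕ} (h : ∀ x, x ≠ 1 → Nat.card {i | f x i = i} = n) : False := by
  classical
  have := Fintype.ofFinite D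
  let _ : MulAction D (Fin 8) := MulAction.compHom _ f
  have h1 := MulAction.sum_card_fixedBy_eq_card_orbits_mul_card_group D (Fin 8)
  have h2 : ∀ x : D, Fintype.card (MulAction.fixedBy (Fin 8) x) = Nat.card {i | f x i = i} :=
    fun x => Nat.card_eq_fintype_card.symm
  rw [← Finset.add_sum_erase _ _ (Finset.mem_univ 1), Finset.sum_congr rfl fun x hx =>
    (h2 x).trans (h x (Finset.ne_of_mem_erase hx)), h2, map_one, Finset.sum_const,
    Finset.card_erase_of_mem (Finset.mem_univ _), Finset.card_univ, ← Nat.card_eq_fintype_card (α := D),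
    h9] at h1
  have : Nontrivial D := Finite.one_lt_card_iff_nontrivial.1 (by omega)
  obtain ⟨x, hx⟩ := exists_ne (1 : D)
  have h3 := fx_le (f x)
  have h4 := fx_ne ((map_ne_one_iff f hf).2 hx)
  rw [h x hx] at h3 h4
  simp at h1
  omega

theorem syl45 {H : Type*} [Group H] [Finite H] (h : Nat.card H ∣ 45) (p : ℕ) [Fact p.Prime]
    (hp : p = 3 ∨ p = 5) : Subsingleton (Sylow p H) := by
  have h1 := card_sylow_modEq_one p H
  have h2 : Nat.card (Sylow p H) ∣ 45 :=
    ((Sylow.card_dvd_index (default : Sylow p H)).trans (index_dvd_card _)).trans h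
  have h3 := Nat.le_of_dvd (by norm_num) h2
  have h4 : Nat.card (Sylow p H) = 1 := by
    generalize Nat.card (Sylow p H) = n at *
    have h5 : n = 1 ∨ n = 3 ∨ n = 5 ∨ n = 9 ∨ n = 15 ∨ n = 45 := by
      have : n ∈ Nat.divisors 45 := Nat.mem_divisors.2 ⟨h2, by norm_num⟩
      revert this
      rw [show Nat.divisors 45 = {1, 3, 5, 9, 15, 45} by decide]
      simp
    simp only [Nat.ModEq] at h1
    rcases hp with rfl | rfl <;> omega
  exact (Nat.card_eq_one_iff_unique.1 h4).1

theorem comm9 {H : Type*} [Group H] [Finite H] (h : Nat.card H ∣ 9) (a b : H) : a * b = b * a := by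
  have : Fact (Nat.Prime 3) := ⟨by decide⟩
  obtain ⟨k, hk, h2⟩ := (Nat.dvd_prime_pow this.out (m := 2)).1 h
  interval_cases k
  · exact (Nat.card_eq_one_iff_unique.1 h2).1.elim _ _
  · have := isCyclic_of_prime_card (p := 3) h2
    exact mul_comm' a b
  · exact (IsPGroup.isMulCommutative_of_card_eq_prime_sq h2).is_comm.comm a b

section
variable {Γ : Type*} [Group Γ] [Finite Γ] (f : Γ →* Perm (Fin 8)) (hf : Function.Injective f)
  (hs : ∀ x, Perm.sign (f x) = 1) {O E : Subgroup Γ} {t c : Γ}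

omit [Finite Γ] in
include hf in
theorem card_dvd (H : Subgroup Γ) : Nat.card H ∣ 40320 := by
  have := card_dvd_of_injective (f.comp H.subtype) (hf.comp H.subtype_injective)
  rwa [Nat.card_perm, Nat.card_fin] at this

include hf hs in
theorem no7 (h2 : t * t = 1) (h1 : t ≠ 1) (h7 : c ^ 7 = 1) (hc : c ≠ 1)
    (hn : t * c * t⁻¹ ∈ zpowers c) : False := by
  classical
  have : Fact (Nat.Prime 7) := ⟨by decide⟩
  have ho : orderOf c = 7 := orderOf_eq_prime h7 hc
  have hc' := (map_ne_one_iff f hf).2 hc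
  have h7' : f c ^ 7 = 1 := by rw [← map_pow, h7, map_one]
  have h2' : f t * f t = 1 := by rw [← map_mul, h2, map_one]
  obtain ⟨k, hk⟩ := (mem_zpowers_iff_mem_range_orderOf.trans Finset.mem_image).1 hn
  rw [ho, Finset.mem_range] at hk
  have h3 : c ^ (k * k) = c ^ 1 := by
    rw [pow_mul, hk.2, conj_pow, hk.2, ← mul_assoc, ← mul_assoc, h2, mul_assoc, mul_assoc,
      ← mul_inv_rev, h2]
    simp
  rw [pow_eq_pow_iff_modEq, ho, Nat.ModEq] at h3
  have h4 : k = 1 ∨ k = 6 := by
    obtain ⟨h5, -⟩ := hk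
    interval_cases k <;> omega
  rcases h4 with rfl | rfl
  · refine h1 ((map_eq_one_iff f hf).1 (cent57 7 (Or.inr rfl) h7' hc' h2' (hs t) ?_))
    rw [← map_mul, ← map_mul, mul_inv_eq_iff_eq_mul.1 hk.2.symm, pow_one]
  · refine inv7 h7' hc' h2' (hs t) ?_
    rw [← map_inv, ← map_mul, ← map_mul, ← hk.2, ← map_inv]
    exact congrArg f (eq_inv_of_mul_eq_one_left (by rw [← pow_succ, h7]))

include hf hs in
/-- A normal subgroup of odd order of a subgroup of even order of `A₈`. -/
theorem dvd45 [hn : O.Normal] (hO : (Nat.card O).Coprime 2) (h2 : t * t = 1) (h1 : t ≠ 1) :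
    Nat.card O ∣ 45 := by
  have : Fact (Nat.Prime 7) := ⟨by decide⟩
  have h7 : ¬ 7 ∣ Nat.card O := fun h7 => by
    obtain ⟨Q, hQ⟩ := exists_isSylowIn (p := 7) O
    have hQ1 : Q ≠ ⊥ := fun h => hQ.eq_bot_iff.1 h h7
    have hQ7 : Nat.card Q = 7 := by
      obtain ⟨k, hk⟩ := IsPGroup.iff_card.1 hQ.isPGroup
      have h3 := card_dvd f hf Q
      rw [hk] at h3 ⊢
      rcases k with _ | _ | k
      · exact absurd (card_eq_one.1 hk) hQ1
      · rfl
      · exact absurd ((pow_dvd_pow 7 (by omega : 2 ≤ k + 1 + 1)).trans h3) (by norm_num)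
    obtain ⟨k, hk, n, hnQ, rfl⟩ := hQ.frattini (g := t) (by rw [normalizer_eq_top]; trivial)
    have hodd : ∀ x ∈ O, (orderOf x).Coprime 2 := fun x hx =>
      hO.coprime_dvd_left (orderOf_dvd_natCard O hx)
    have h3 : n * n ∈ O := by
      have h4 : n * n = n * k⁻¹ * n⁻¹ * k⁻¹ * (k * n * (k * n)) := by group
      rw [h2, mul_one] at h4
      exact h4 ▸ mul_mem (hn.conj_mem _ (inv_mem hk) n) (inv_mem hk)
    obtain ⟨m, hm⟩ := Nat.coprime_two_right.1 (hodd _ h3)
    have h5 : n ^ (2 * m + 1) * n ^ (2 * m + 1) = 1 := by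
      rw [← (Commute.refl n).mul_pow, ← hm, pow_orderOf_eq_one]
    have h6 : n ^ (2 * m + 1) ≠ 1 := fun h => by
      have h8 : k * n ∈ O := by
        rw [pow_succ, pow_mul, sq, ← eq_inv_iff_mul_eq_one] at h
        exact mul_mem hk ((inv_mem_iff).1 (h ▸ pow_mem h3 m))
      have h9 := hodd _ h8
      rw [orderOf_eq_prime (p := 2) (by rw [sq, h2]) h1] at h9
      norm_num at h9
    obtain ⟨c, hc, hc1⟩ := (bot_or_exists_ne_one Q).resolve_left hQ1
    have h8 : c ^ 7 = 1 := hQ7 ▸ congrArg Subtype.val (pow_card_eq_one' (x := (⟨c, hc⟩ : Q)))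
    have h9 : zpowers c = Q := eq_of_le_of_card_ge (zpowers_le.2 hc)
      (by rw [Nat.card_zpowers, orderOf_eq_prime h8 hc1, hQ7])
    exact no7 f hf hs h5 h6 h8 hc1 (h9 ▸ (mem_normalizer_iff.1 (pow_mem hnQ _) c).1 hc)
  have h3 : Nat.card O ∣ 45 * (2 ^ 7 * 7) := card_dvd f hf O
  exact (Nat.Coprime.mul_right (hO.pow_right 7)
    ((Nat.Prime.coprime_iff_not_dvd this.out).2 h7).symm).dvd_of_dvd_mul_right h3

include hf hs in
theorem comm3 [O.Normal] (hO : (Nat.card O).Coprime 2) (h2 : t * t = 1) (h1 : t ≠ 1) {a b : Γ}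
    (ha : a ∈ O) (hb : b ∈ O) (ha3 : a ^ 3 = 1) (hb3 : b ^ 3 = 1) : a * b = b * a := by
  have : Fact (Nat.Prime 3) := ⟨by decide⟩
  have h45 := dvd45 f hf hs hO h2 h1
  have := syl45 h45 3 (Or.inl rfl)
  have key : ∀ x : O, x ^ 3 = 1 → x ∈ (default : Sylow 3 O) := fun x hx => by
    obtain ⟨Q, hQ⟩ := (IsPGroup.of_card (G := zpowers x) (p := 3) (n := (orderOf x).log 3) (by
      rw [Nat.card_zpowers]
      rcases (Nat.dvd_prime Nat.prime_three).1 (orderOf_dvd_of_pow_eq_one hx) with h | h <;>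
        rw [h] <;> norm_num)).exists_le_sylow
    exact Subsingleton.elim Q default ▸ hQ (mem_zpowers x)
  obtain ⟨k, hk⟩ := IsPGroup.iff_card.1 (default : Sylow 3 O).isPGroup'
  have h9 : Nat.card (default : Sylow 3 O) ∣ 9 :=
    Nat.Coprime.dvd_of_dvd_mul_right (n := 5) (hk ▸ Nat.Coprime.pow_left k (by norm_num))
      ((card_subgroup_dvd_card _).trans h45)
  exact congrArg (fun x => x.1.1) (comm9 h9 ⟨⟨a, ha⟩, key _ (Subtype.ext ha3)⟩
    ⟨⟨b, hb⟩, key _ (Subtype.ext hb3)⟩)

end

end Cfsg.Lib.GHM.A8
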