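import Cfsg.Agent.GHM.A8

/-!
# Subgroups of `A₈` whose Sylow 2-subgroups have a unique involution: the structure
-/

set_option autoImplicit false

namespace Cfsg.Lib.GHM.A8

open Subgroup Equiv Cfsg.Lib.Trans Cfsg.Lib.Solv

variable {Γ : Type*} [Group Γ] [Finite Γ] {R D E : Subgroup Γ} {t c : Γ}
  (hR : IsPGroup 2 R) (ht : t ∈ R) (h2 : t * t = 1) (h1 : t ≠ 1)
  (hu : ∀ r ∈ R, r * r = 1 → r = 1 ∨ r = t)

omit [Finite Γ] in
include hR hu in
theorem free (hc : t * c * t⁻¹ ≠ c) : ∀ r ∈ R, r * c * r⁻¹ = c → r = 1 := fun r hr h => by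
  by_contra h0
  obtain ⟨k, hk⟩ := hR ⟨r, hr⟩
  obtain ⟨j, hj⟩ := PG.exists_pow_orderOf_eq_prime (p := 2) h0 (congrArg Subtype.val hk)
  rcases hu _ (pow_mem hr (2 ^ j)) (by
    rw [← sq]; exact orderOf_dvd_iff_pow_eq_one.1 hj.dvd) with h3 | h3
  · rw [h3, orderOf_one] at hj
    omega
  · refine hc (h3 ▸ mul_inv_eq_iff_eq_mul.2 ?_)
    exact (Commute.pow_left (mul_inv_eq_iff_eq_mul.1 h) _ :)

include hR hu in
theorem bound (hE : R ≤ normalizer (E : Set Γ)) (hcE : c ∈ E) (hc : t * c * t⁻¹ ≠ c) :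
    Nat.card R + 1 ≤ Nat.card E ∧
      (Nat.card R + 1 = Nat.card E → ∀ x ∈ E, x ≠ 1 → ∃ r : Γ, r * c * r⁻¹ = x) := by
  have a1 : ((fun r => r * c * r⁻¹) '' (R : Set Γ)).ncard = Nat.card R := by
    refine Set.InjOn.ncard_image fun a ha b hb h => ?_
    have := free hR hu hc (b⁻¹ * a) (mul_mem (inv_mem hb) ha) (by
      rw [show b⁻¹ * a * c * (b⁻¹ * a)⁻¹ = b⁻¹ * (a * c * a⁻¹) * b by group, show _ = _ from h]
      group)
    exact (inv_mul_eq_one.1 this).symm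
  have a2 : (fun r => r * c * r⁻¹) '' (R : Set Γ) ⊆ (E : Set Γ) \ {1} := by
    rintro _ ⟨r, hr, rfl⟩
    refine ⟨(mem_normalizer_iff.1 (hE hr) c).1 hcE, fun h => hc ?_⟩
    rw [conj_eq_one_iff.1 h, mul_one, mul_inv_cancel]
  have a3 : ((E : Set Γ) \ {1}).ncard + 1 = Nat.card E :=
    Set.ncard_sdiff_singleton_add_one E.one_mem
  have a4 := Set.ncard_le_ncard a2
  refine ⟨by omega, fun h x hx hx1 => ?_⟩
  have a5 := Set.eq_of_subset_of_ncard_le a2 (by omega)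
  obtain ⟨r, -, hr⟩ : x ∈ (fun r => r * c * r⁻¹) '' (R : Set Γ) := a5 ▸ ⟨hx, hx1⟩
  exact ⟨r, hr⟩

include hR h2 hu in
theorem shape (h4 : Nat.card R ≤ 4) : (∀ r ∈ R, r = 1 ∨ r * t = 1) ∨
    ∃ y ∈ R, y * y = t ∧ ∀ r ∈ R, r = 1 ∨ r * t = 1 ∨ r * y = 1 ∨ r * y⁻¹ = 1 := by
  classical
  by_cases h : ∀ r ∈ R, r * r = 1
  · exact Or.inl fun r hr => (hu r hr (h r hr)).imp id fun h3 => by rw [h3, h2]
  push Not at h
  obtain ⟨y, hy, hy2⟩ := h
  obtain ⟨k, hk⟩ := IsPGroup.iff_card.1 hR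
  have a1 : y ^ Nat.card R = 1 := congrArg Subtype.val (pow_card_eq_one' (x := (⟨y, hy⟩ : R)))
  have a2 : Nat.card R = 4 := by
    rw [hk] at h4 a1 ⊢
    rcases k with _ | _ | _ | k
    · exact absurd (by rw [show y = 1 by simpa using a1, one_mul]) hy2
    · exact absurd (by simpa [sq] using a1) hy2
    · rfl
    · have := Nat.pow_le_pow_right (n := 2) two_pos (show 3 ≤ k + 1 + 1 + 1 by omega)
      omega
  rw [a2] at a1
  have a3 : y * y = t := (hu _ (mul_mem hy hy) (by rw [← a1]; simp only [pow_succ, pow_zero, one_mul, mul_assoc])).resolve_left hy2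
  have a4 : orderOf y = 2 ^ 2 := orderOf_eq_prime_pow (by simpa [sq] using hy2) a1
  have a5 : zpowers y = R := eq_of_le_of_card_ge (zpowers_le.2 hy)
    (by rw [Nat.card_zpowers, a4, a2]; norm_num)
  refine Or.inr ⟨y, hy, a3, fun r hr => ?_⟩
  obtain ⟨i, hi, rfl⟩ := (mem_zpowers_iff_mem_range_orderOf.trans Finset.mem_image).1 (a5 ▸ hr)
  rw [a4, Finset.mem_range] at hi
  rw [← a3]
  interval_cases i
  · exact Or.inl (pow_zero _)
  · exact Or.inr (Or.inr (Or.inr (by group)))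
  · exact Or.inr (Or.inl (by rw [← a1]; group))
  · exact Or.inr (Or.inr (Or.inl (by rw [← a1]; group)))

omit [Finite Γ] in
theorem ne_of_inv (hc : c ≠ 1) (ho : (orderOf c).Coprime 2) (h : t * c * t⁻¹ * c = 1) :
    t * c * t⁻¹ ≠ c := fun h3 => by
  rw [h3, ← sq] at h
  exact hc (orderOf_eq_one_iff.1 (ho.eq_one_of_dvd (orderOf_dvd_of_pow_eq_one h)))

omit [Finite Γ] in
/-- The elements of an abelian normal subgroup inverted by `t`. -/
def Iv (O : Subgroup Γ) [hn : O.Normal] (hO : ∀ a ∈ O, ∀ b ∈ O, a * b = b * a) (t : Γ) :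
    Subgroup Γ where
  carrier := {x | x ∈ O ∧ t * x * t⁻¹ * x = 1}
  one_mem' := ⟨one_mem _, by simp⟩
  mul_mem' {a b} ha hb := ⟨mul_mem ha.1 hb.1, by
    rw [hO a ha.1 b hb.1, show t * (b * a) * t⁻¹ * (b * a) =
      t * b * t⁻¹ * (t * a * t⁻¹ * b) * a by group, hO _ (hn.conj_mem _ ha.1 t) b hb.1,
      ← mul_assoc, hb.2, one_mul, ha.2]⟩
  inv_mem' {a} ha := ⟨inv_mem ha.1, by
    rw [hO _ (hn.conj_mem _ (inv_mem ha.1) t) _ (inv_mem ha.1), ← inv_inj, inv_one, ← ha.2]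
    group⟩

theorem Iv_eq_1' : type_of% @Iv.eq_1 := @Iv.eq_1

/-- The structure theorem. -/
theorem main (f : Γ →* Perm (Fin 8)) (hf : Function.Injective f)
    (hs : ∀ x, Perm.sign (f x) = 1) (hR : IsSylowIn 2 R ⊤) (ht : t ∈ R) (h2 : t * t = 1)
    (h1 : t ≠ 1) (hu : ∀ r ∈ R, r * r = 1 → r = 1 ∨ r = t) (nc : ∃ g, g * t * g⁻¹ ≠ t) :
    ∃ D : Subgroup Γ, D.Normal ∧ (∀ x ∈ D, t * x * t⁻¹ * x = 1) ∧
      (((Nat.card D = 5 ∨ Nat.card D = 9 ∧ ∀ m ∈ D, m ^ 3 = 1) ∧ Nat.card R ≤ 4 ∧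
        ∀ E ≤ D, R ≤ normalizer (E : Set Γ) → E = ⊥ ∨ E = D) ∨
      ((∀ r ∈ R, r = 1 ∨ r * t = 1) ∧ D ≠ ⊥ ∧ (∀ m ∈ D, m ^ 3 = 1) ∧
        ∀ g, g * t * g⁻¹ * t⁻¹ ∈ D)) := by
  obtain ⟨S, rfl⟩ := hR.exists_sylow_eq
  have hz := Block.Princ.zstar_elt S ht fun g hg => (hu _ hg (by
    rw [show g * t * g⁻¹ * (g * t * g⁻¹) = g * (t * t) * g⁻¹ by group, h2, mul_one,
      mul_inv_cancel])).resolve_left fun h => h1 (conj_eq_one_iff.1 h)
  have hO := coprime_card_pPrimeCore 2 Γ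
  have hn : (oddCore Γ).Normal := inferInstance
  change (Nat.card (oddCore Γ)).Coprime 2 at hO
  generalize oddCore Γ = O at hz hO hn
  have h45 := dvd45 f hf hs hO h2 h1
  have hodd : ∀ x ∈ O, (orderOf x).Coprime 2 := fun x hx =>
    hO.coprime_dvd_left (orderOf_dvd_natCard O hx)
  by_cases h5 : 5 ∣ Nat.card O
  · have : Fact (Nat.Prime 5) := ⟨by decide⟩
    have := syl45 h45 5 (Or.inr rfl)
    let Q : Sylow 5 O := default
    have := Q.characteristic_of_subsingleton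
    have hc : Nat.card ((Q : Subgroup O).map O.subtype) = 5 := by
      rw [card_map_of_injective (subtype_injective _)]
      obtain ⟨k, hk⟩ := IsPGroup.iff_card.1 Q.isPGroup'
      have a1 := (card_subgroup_dvd_card (Q : Subgroup O)).trans h45
      have a2 := Q.ne_bot_of_dvd_card h5
      rw [hk] at a1 ⊢
      rcases k with _ | _ | k
      · exact absurd (card_eq_one.1 hk) a2
      · rfl
      · exact absurd ((pow_dvd_pow 5 (by omega : 2 ≤ k + 1 + 1)).trans a1) (by norm_num)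
    have hD : ((Q : Subgroup O).map O.subtype).Normal := inferInstance
    have hle := map_subtype_le (Q : Subgroup O)
    generalize (Q : Subgroup O).map O.subtype = D at hc hD hle
    have a1 : ∀ x ∈ D, t * x * t⁻¹ * x = 1 := fun x hx => by
      by_contra h
      have := isCyclic_of_prime_card (p := 5) hc
      have b1 := hD.conj_mem _ hx t
      have b2 : t * x * t⁻¹ * x = x * (t * x * t⁻¹) :=
        congrArg Subtype.val (mul_comm' (⟨_, b1⟩ : D) ⟨x, hx⟩)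
      have b3 : (t * x * t⁻¹ * x) ^ 5 = 1 :=
        hc ▸ congrArg Subtype.val (pow_card_eq_one' (x := (⟨_, mul_mem b1 hx⟩ : D)))
      refine h1 ((map_eq_one_iff f hf).1 (cent57 (g := f (t * x * t⁻¹ * x)) 5 (Or.inl rfl)
        (by rw [← map_pow, b3, map_one]) ((map_ne_one_iff f hf).2 h)
        (by rw [← map_mul, h2, map_one]) (hs t) ?_))
      rw [← map_mul, ← map_mul]
      nth_rewrite 2 [b2]
      rw [show t * (t * x * t⁻¹ * x) = t * t * x * (t * t)⁻¹ * t * x by group, h2]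
      group
    obtain ⟨c, hcD, hc1⟩ := (bot_or_exists_ne_one D).resolve_left
      (by rintro rfl; rw [card_bot] at hc; omega)
    have a2 := (bound S.isPGroup' hu le_normalizer_of_normal hcD
      (ne_of_inv hc1 (hodd c (hle hcD)) (a1 c hcD))).1
    refine ⟨D, hD, a1, Or.inl ⟨Or.inl hc, by omega, fun E hE _ => ?_⟩⟩
    rcases (Nat.dvd_prime (by decide)).1 (hc ▸ card_dvd_of_le hE) with h | h
    · exact Or.inl (card_eq_one.1 h)
    · exact Or.inr (eq_of_le_of_card_ge hE (by omega))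
  have h9 : Nat.card O ∣ 9 := Nat.Coprime.dvd_of_dvd_mul_right (n := 5)
    ((Nat.Prime.coprime_iff_not_dvd (by decide)).2 h5).symm h45
  have hc : ∀ a ∈ O, ∀ b ∈ O, a * b = b * a := fun a ha b hb =>
    congrArg Subtype.val (comm9 h9 ⟨a, ha⟩ ⟨b, hb⟩)
  have h3 : ∀ m ∈ Iv O hc t, m ^ 3 = 1 := fun m hm => hf (by
    rw [map_pow, map_one]
    refine cube ?_
    rw [← map_pow, orderOf_dvd_iff_pow_eq_one.1 ((orderOf_dvd_natCard O hm.1).trans h9), map_one])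
  have a0 : ∀ g, g * t * g⁻¹ * t⁻¹ ∈ Iv O hc t := fun g => ⟨hz g, by
    rw [show t * (g * t * g⁻¹ * t⁻¹) * t⁻¹ * (g * t * g⁻¹ * t⁻¹) =
      t * g * t * g⁻¹ * (t * t)⁻¹ * g * t * g⁻¹ * t⁻¹ by group, h2,
      show t * g * t * g⁻¹ * 1⁻¹ * g * t * g⁻¹ * t⁻¹ = t * g * (t * t) * g⁻¹ * t⁻¹ by group, h2]
    group⟩
  have hD : (Iv O hc t).Normal := ⟨fun x hx g => ⟨hn.conj_mem _ hx.1 g, by
    have b1 := hc _ (hz g⁻¹) _ (hn.conj_mem _ hx.1 t)
    rw [show t * (g * x * g⁻¹) * t⁻¹ * (g * x * g⁻¹) =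
      g * ((g⁻¹ * t * g⁻¹⁻¹ * t⁻¹) * (t * x * t⁻¹) * (g⁻¹ * t * g⁻¹⁻¹ * t⁻¹)⁻¹ * x) * g⁻¹ by group,
      b1, mul_inv_cancel_right, hx.2, mul_one, mul_inv_cancel]⟩⟩
  have a1 : ∀ x ∈ Iv O hc t, t * x * t⁻¹ * x = 1 := fun x hx => hx.2
  have hle : Iv O hc t ≤ O := fun x hx => hx.1
  generalize Iv O hc t = D at h3 a0 hD a1 hle
  obtain ⟨g, hg⟩ := nc
  have hg' : g * t * g⁻¹ * t⁻¹ ≠ 1 := fun h => hg (mul_inv_eq_one.1 h)
  have b1 : ∀ E ≤ D, Nat.card E ∣ 3 ^ 2 := fun E hE => (card_dvd_of_le (hE.trans hle)).trans h9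
  have b2 : ∀ E ≤ D, Nat.card E ≤ 3 ∨ Nat.card E = 9 := fun E hE => by
    obtain ⟨k, hk, h⟩ := (Nat.dvd_prime_pow Nat.prime_three).1 (b1 E hE)
    interval_cases k <;> omega
  obtain ⟨a2, a3⟩ := bound S.isPGroup' hu le_normalizer_of_normal (a0 g)
    (ne_of_inv hg' (hodd _ (hz g)) (a1 _ (a0 g)))
  obtain ⟨k, hk⟩ := IsPGroup.iff_card.1 S.isPGroup'
  have a4 := b2 D le_rfl
  refine ⟨D, hD, a1, ?_⟩
  rcases k with _ | _ | _ | _ | k
  · exact absurd (mem_bot.1 (card_eq_one.1 hk ▸ ht)) h1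
  · refine Or.inr ⟨fun r hr => (hu r hr ?_).imp id fun h => by rw [h, h2],
      fun h => hg' (mem_bot.1 (h ▸ a0 g)), h3, a0⟩
    have := congrArg Subtype.val (pow_card_eq_one' (x := (⟨r, hr⟩ : (S : Subgroup Γ))))
    rwa [hk, ← sq] at *
  · refine Or.inl ⟨Or.inr ⟨by omega, h3⟩, by omega, fun E hE hS => ?_⟩
    refine (bot_or_exists_ne_one E).imp id fun ⟨c, hcE, hc1⟩ => eq_of_le_of_card_ge hE ?_
    have := (bound S.isPGroup' hu hS hcE
      (ne_of_inv hc1 (hodd c (hle (hE hcE))) (a1 c (hE hcE)))).1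
    have := b2 E hE
    omega
  · refine (nine (f.comp D.subtype) (hf.comp D.subtype_injective) (by omega)
      (n := Nat.card {i | f (g * t * g⁻¹ * t⁻¹) i = i}) fun x hx => ?_).elim
    obtain ⟨r, hr⟩ := a3 (by omega) x x.2 fun h => hx (Subtype.ext h)
    rw [← fx_conj (f r) (f _), ← map_inv, ← map_mul, ← map_mul, hr]
    rfl
  · have := Nat.pow_le_pow_right (n := 2) two_pos (show 4 ≤ k + 1 + 1 + 1 + 1 by omega)
    omega

end Cfsg.Lib.GHM.A8
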